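import Cfsg.Agent.Lib.Fusion.YoshidaCore

/-!
# Iterated commutators and the norm

For `ν : R → C_p`, `R` normal in `Y`, `z ∈ Y`, `x ∈ R`: the product of the `ν(z^{-i} x z^i)`, `0 ≤ i < p`, equals
`ν([x, z; p - 1])`.  Together with a telescoping lemma for cocycles.
-/

set_option autoImplicit false

namespace Cfsg.Agent.Lib.WYoshida.Basic

open Cfsg.Agent.Lib.Fusion.YoshidaGroup

universe u v w

section diff

variable {p : ℕ} [hp : Fact p.Prime]

/-- The forward difference. -/
def diffOp (b : ℕ → ZMod p) : ℕ → ZMod p := fun i => b (i + 1) - b i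

theorem poly_identity : ((Polynomial.X : Polynomial (ZMod p)) - 1) ^ (p - 1) =
    ∑ i ∈ Finset.range p, (Polynomial.X : Polynomial (ZMod p)) ^ i := by
  have hne : (Polynomial.X : Polynomial (ZMod p)) - 1 ≠ 0 := Polynomial.X_sub_C_ne_zero (1 : ZMod p)
  apply mul_left_cancel₀ hne
  rw [mul_geom_sum, ← pow_succ', Nat.sub_add_cancel hp.out.one_le, sub_pow_char, one_pow]

theorem iter_diff_zero (a : ℕ → ZMod p) : ((diffOp (p := p))^[p - 1] a) 0 = ∑ i ∈ Finset.range p, a i := by
  -- the shift operator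
  let s : Module.End (ZMod p) (ℕ → ZMod p) :=
    { toFun := fun b i => b (i + 1)
      map_add' := fun _ _ => rfl
      map_smul' := fun _ _ => rfl }
  have hsapp : ∀ (b : ℕ → ZMod p) i, s b i = b (i + 1) := fun _ _ => rfl
  have h1 : ∀ (k : ℕ) (b : ℕ → ZMod p), (diffOp (p := p))^[k] b = ((s - 1) ^ k) b := by
    intro k
    induction k with
    | zero => intro b; rfl
    | succ k ih =>
      intro b
      rw [Function.iterate_succ_apply', ih, pow_succ', Module.End.mul_apply]
      rfl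
  have h2 : ∀ (k : ℕ) (b : ℕ → ZMod p), ((s ^ k) b) 0 = b k := by
    intro k
    induction k with
    | zero => intro b; rfl
    | succ k ih =>
      intro b
      rw [pow_succ, Module.End.mul_apply, ih, hsapp]
  have h3 := congrArg (Polynomial.aeval s) (poly_identity (p := p))
  simp only [map_pow, map_sub, Polynomial.aeval_X, map_one, map_sum] at h3
  rw [h1, h3, LinearMap.sum_apply, Finset.sum_apply]
  exact Finset.sum_congr rfl (fun i _ => h2 i a)

end diff

section norm

variable {Y : Type u} [Group Y] {p : ℕ} [hp : Fact p.Prime]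

/-- The commutator with `z` on a normal subgroup. -/
def commR (R : Subgroup Y) [R.Normal] (z : Y) (y : R) : R := y⁻¹ * cjn R z y

theorem commR_coe (R : Subgroup Y) [R.Normal] (z : Y) (y : R) :
    ((commR R z y : R) : Y) = (y : Y)⁻¹ * z⁻¹ * y * z := by
  simp only [commR, Subgroup.coe_mul, Subgroup.coe_inv, cjn_coe]
  group

theorem iter_commR_coe (R : Subgroup Y) [R.Normal] (z : Y) (k : ℕ) (y : R) :
    (((commR R z)^[k] y : R) : Y) = (fun u : Y => u⁻¹ * z⁻¹ * u * z)^[k] (y : Y) := by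
  induction k with
  | zero => rfl
  | succ k ih =>
    rw [Function.iterate_succ_apply', Function.iterate_succ_apply', commR_coe, ih]

/-- The values of `ν` on conjugates, additively. -/
def seqv (R : Subgroup Y) [R.Normal] (ν : R →* Multiplicative (ZMod p)) (z : Y) (y : R) : ℕ → ZMod p :=
  fun i => Multiplicative.toAdd (ν (cjn R (z ^ i) y))

theorem seqv_commR (R : Subgroup Y) [R.Normal] (ν : R →* Multiplicative (ZMod p)) (z : Y) (y : R) :
    seqv R ν z (commR R z y) = diffOp (seqv R ν z y) := by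
  funext i
  simp only [seqv, diffOp, commR, map_mul, map_inv, toAdd_mul, toAdd_inv]
  have h : cjn R (z ^ i) (cjn R z y) = cjn R (z ^ (i + 1)) y := by
    apply Subtype.ext
    simp only [cjn_coe, pow_succ']
    group
  rw [h]
  abel

theorem seqv_iter (R : Subgroup Y) [R.Normal] (ν : R →* Multiplicative (ZMod p)) (z : Y) (k : ℕ) (y : R) :
    seqv R ν z ((commR R z)^[k] y) = (diffOp (p := p))^[k] (seqv R ν z y) := by
  induction k with
  | zero => rfl
  | succ k ih =>
    rw [Function.iterate_succ_apply', Function.iterate_succ_apply', seqv_commR, ih]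

/-- **The norm as an iterated commutator.** -/
theorem nu_iter (R : Subgroup Y) [R.Normal] (ν : R →* Multiplicative (ZMod p)) (z : Y) (x : R) :
    ν ((commR R z)^[p - 1] x) = ∏ i ∈ Finset.range p, ν (cjn R (z ^ i) x) := by
  apply Multiplicative.toAdd.injective
  rw [toAdd_prod]
  have h1 := congrFun (seqv_iter R ν z (p - 1) x) 0
  rw [iter_diff_zero] at h1
  have h2 : seqv R ν z ((commR R z)^[p - 1] x) 0 = Multiplicative.toAdd (ν ((commR R z)^[p - 1] x)) := by
    simp only [seqv, pow_zero]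
    congr 2
    apply Subtype.ext
    simp [cjn_coe]
  rw [← h2, h1]
  rfl

/-- The product over the cosets, computed with powers of an element outside `R`. -/
theorem prod_cosets_eq [Finite Y] (R : Subgroup Y) [R.Normal] (hR : R.index = p) [Fintype (Y ⧸ R)]
    (ν : R →* Multiplicative (ZMod p)) {z : Y} (hz : z ∉ R) (x : R) :
    ∏ c : Y ⧸ R, ν (cjn R c.out x) = ∏ i ∈ Finset.range p, ν (cjn R (z ^ i) x) := by
  classical
  have hcard : Nat.card (Y ⧸ R) = p := hR
  have hz1 : ((z : Y) : Y ⧸ R) ≠ 1 := fun h0 => hz ((QuotientGroup.eq_one_iff _).1 h0)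
  have hord : orderOf ((z : Y) : Y ⧸ R) = p :=
    orderOf_eq_prime (by rw [← hcard]; exact pow_card_eq_one') hz1
  let g : Fin p → Y ⧸ R := fun i => ((z ^ (i : ℕ) : Y) : Y ⧸ R)
  have hginj : Function.Injective g := by
    intro i j hij
    have h1 : ((z : Y) : Y ⧸ R) ^ (i : ℕ) = ((z : Y) : Y ⧸ R) ^ (j : ℕ) := hij
    have h2 := pow_injOn_Iio_orderOf (x := ((z : Y) : Y ⧸ R)) (by simp [hord])
      (by simp [hord]) h1
    exact Fin.ext h2
  have hgbij : Function.Bijective g := by
    refine (Fintype.bijective_iff_injective_and_card g).2 ⟨hginj, ?_⟩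
    rw [Fintype.card_fin, ← Nat.card_eq_fintype_card, hcard]
  have hterm : ∀ i : Fin p, ν (cjn R (g i).out x) = ν (cjn R (z ^ (i : ℕ)) x) := by
    intro i
    have h1 : (((g i).out : Y) : Y ⧸ R) = ((z ^ (i : ℕ) : Y) : Y ⧸ R) := QuotientGroup.out_eq' _
    have h2 : (z ^ (i : ℕ))⁻¹ * (g i).out ∈ R := QuotientGroup.eq.1 h1.symm
    have h3 : cjn R (g i).out x = (⟨_, h2⟩ : R)⁻¹ * cjn R (z ^ (i : ℕ)) x * ⟨_, h2⟩ := by
      apply Subtype.ext
      simp only [cjn_coe, Subgroup.coe_mul, Subgroup.coe_inv]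
      group
    rw [h3, map_mul, map_mul, map_inv, mul_comm, mul_inv_cancel_left]
  rw [Finset.prod_range, ← hgbij.prod_comp]
  exact Finset.prod_congr rfl (fun i _ => hterm i)

end norm

section telescope

variable {T : Type u} {A : Type v} {C : Type w} [Group T] [MulAction T A] [CommGroup C]

/-- **Telescoping a cocycle over an invariant set on which stabilizers are killed.** -/
theorem prod_cocycle_eq_one (h : T → A → C) (hc : ∀ s s' a, h (s * s') a = h s (s' • a) * h s' a)
    (t : T) (O : Finset A) (hO : ∀ (z : T) (ξ : A), ξ ∈ O → z • ξ ∈ O)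
    (hs : ∀ ξ ∈ O, ∀ z : T, z • ξ = ξ → h z ξ = 1) : ∏ ξ ∈ O, h t ξ = 1 := by
  classical
  -- base points and transporters
  let b : A → A := fun ξ => Quotient.out (Quotient.mk (MulAction.orbitRel T A) ξ)
  have hb : ∀ ξ, ∃ z : T, z • b ξ = ξ := by
    intro ξ
    have h1 : Quotient.mk (MulAction.orbitRel T A) (b ξ) = Quotient.mk (MulAction.orbitRel T A) ξ :=
      Quotient.out_eq _
    have h2 : b ξ ∈ MulAction.orbit T ξ := MulAction.orbitRel_apply.1 (Quotient.exact h1)
    obtain ⟨z, hz⟩ := h2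
    refine ⟨z⁻¹, ?_⟩
    rw [← hz, inv_smul_smul]
  choose τ hτ using hb
  have hbsame : ∀ (z : T) (ξ : A), b (z • ξ) = b ξ := by
    intro z ξ
    have : Quotient.mk (MulAction.orbitRel T A) (z • ξ) = Quotient.mk (MulAction.orbitRel T A) ξ := by
      apply Quotient.sound
      exact MulAction.orbitRel_apply.2 ⟨z, rfl⟩
    simp only [b, this]
  have hbmem : ∀ ξ ∈ O, b ξ ∈ O := by
    intro ξ hξ
    have h1 := hO (τ ξ)⁻¹ ξ hξ
    have h2 : (τ ξ)⁻¹ • ξ = b ξ := by
      rw [inv_smul_eq_iff, hτ]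
    rwa [h2] at h1
  have hone : ∀ a : A, h 1 a = 1 := by
    intro a
    have := hc 1 1 a
    rw [mul_one, one_smul] at this
    exact (mul_eq_left.1 this.symm)
  -- the potential
  let W : A → C := fun ξ => h (τ ξ) (b ξ)
  have hwell : ∀ ξ ∈ O, ∀ z z' : T, z • b ξ = z' • b ξ → h z (b ξ) = h z' (b ξ) := by
    intro ξ hξ z z' he
    have h1 : (z'⁻¹ * z) • b ξ = b ξ := by rw [mul_smul, he, inv_smul_smul]
    have h2 := hs _ (hbmem ξ hξ) _ h1
    have h3 : z = z' * (z'⁻¹ * z) := by group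
    rw [h3, hc, h1, h2, mul_one]
  have key : ∀ ξ ∈ O, h t ξ * W ξ = W (t • ξ) := by
    intro ξ hξ
    have h1 : W ξ = h (τ ξ) (b ξ) := rfl
    have h2 : h t ξ * h (τ ξ) (b ξ) = h (t * τ ξ) (b ξ) := by
      rw [hc, hτ]
    rw [h1, h2]
    have h3 : W (t • ξ) = h (τ (t • ξ)) (b (t • ξ)) := rfl
    rw [h3]
    have h4 : b (t • ξ) = b ξ := hbsame t ξ
    have h5 : τ (t • ξ) • b ξ = t • ξ := by
      have := hτ (t • ξ)
      rwa [h4] at this
    have h6 : τ (t • ξ) • b (t • ξ) = (t * τ ξ) • b ξ := by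
      rw [hτ, mul_smul, hτ]
    rw [h4, hwell ξ hξ (t * τ ξ) (τ (t • ξ)) (by rw [h5, mul_smul, hτ])]
  have h2 : ∏ ξ ∈ O, W (t • ξ) = ∏ ξ ∈ O, W ξ :=
    Finset.prod_equiv (MulAction.toPerm t) (fun ξ => ⟨fun hξ => hO t ξ hξ, fun hξ => by
      have := hO t⁻¹ _ hξ
      rwa [MulAction.toPerm_apply, inv_smul_smul] at this⟩) (fun _ _ => rfl)
  have h3 : (∏ ξ ∈ O, h t ξ) * ∏ ξ ∈ O, W ξ = ∏ ξ ∈ O, W ξ := by
    conv_rhs => rw [← h2]
    rw [← Finset.prod_mul_distrib]
    exact Finset.prod_congr rfl key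
  exact mul_eq_right.1 h3

end telescope

end Cfsg.Agent.Lib.WYoshida.Basic
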