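import Cfsg.Agent.Lib.WYoshida.Basic
import Cfsg.Agent.Lib.Fusion.GroupSystem
import Cfsg.Agent.Lib.Transfer.Tate
import Cfsg.Agent.Lib.Transfer.Focal
import Cfsg.Agent.Lib.Transfer.Frobenius
import Cfsg.Agent.Lib.Fusion.TateFocal

/-!
# The Wielandt-Yoshida transfer theorem for weakly closed subgroups
-/

set_option autoImplicit false

open scoped commutatorElement

namespace Cfsg.Agent.Lib.WYoshida.Main

open Cfsg Cfsg.Agent.Lib.WYoshida.Basic Cfsg.Agent.Lib.Fusion.YoshidaGroup Cfsg.Agent.Lib.Fusion.YoshidaOrbit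
  Cfsg.Agent.Lib.Fusion.YoshidaCore

universe u v

section transfer

variable {G : Type u} [Group G] {C : Type v} [CommGroup C] (N : Subgroup G) (lam : N →* C)

theorem coc_mem (s : G) (ξ : G ⧸ N) : (s • ξ).out⁻¹ * s * ξ.out ∈ N := by
  have h1 : ((s • ξ).out : G ⧸ N) = ((s * ξ.out : G) : G ⧸ N) := by
    rw [QuotientGroup.out_eq']
    conv_lhs => rw [← QuotientGroup.out_eq' ξ]
    rfl
  have := QuotientGroup.eq.1 h1
  rwa [← mul_assoc] at this

/-- The cocycle of the transfer to `N`. -/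
noncomputable def coc (s : G) (ξ : G ⧸ N) : C := lam ⟨(s • ξ).out⁻¹ * s * ξ.out, coc_mem N s ξ⟩

theorem coc_mul (s s' : G) (ξ : G ⧸ N) :
    coc N lam (s * s') ξ = coc N lam s (s' • ξ) * coc N lam s' ξ := by
  unfold coc
  rw [← map_mul]
  congr 1
  apply Subtype.ext
  simp only [Subgroup.coe_mul, mul_smul]
  group

theorem coc_one (ξ : G ⧸ N) : coc N lam 1 ξ = 1 := by
  have := coc_mul N lam 1 1 ξ
  rw [mul_one, one_smul] at this
  exact mul_eq_left.1 this.symm

/-- The transfer to `N`, as a homomorphism. -/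
noncomputable def transferHom [Fintype (G ⧸ N)] : G →* C where
  toFun s := ∏ ξ, coc N lam s ξ
  map_one' := Finset.prod_eq_one (fun ξ _ => coc_one N lam ξ)
  map_mul' s s' := by
    simp only [coc_mul]
    rw [Finset.prod_mul_distrib]
    congr 1
    exact Equiv.prod_comp (MulAction.toPerm s') (fun ξ => coc N lam s ξ)

theorem transferHom_apply [Fintype (G ⧸ N)] (s : G) : transferHom N lam s = ∏ ξ, coc N lam s ξ := rfl

theorem transferHom_commutator [Fintype (G ⧸ N)] {x : G} (hx : x ∈ commutator G) : transferHom N lam x = 1 := by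
  have : commutator G ≤ (transferHom N lam).ker := Abelianization.commutator_subset_ker _
  exact this hx

end transfer

section group

variable {G : Type u} [Group G] [Finite G] {p : ℕ} [hp : Fact p.Prime] (S : Sylow p G)

theorem focal_le_commutator : (groupFusionSystem (S : Subgroup G)).focalSubgroup ≤ commutator G := by
  unfold Cfsg.FusionSystem.focalSubgroup
  rw [Subgroup.closure_le]
  rintro y ⟨P, φ, x, hφ, rfl⟩
  obtain ⟨-, -, g, hg⟩ := Cfsg.Agent.Lib.Fusion.GroupSystem.mem_hom_iff.1 hφ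
  rw [hg]
  have h10 : (x : G)⁻¹ * (g * (x : G) * g⁻¹) = ⁅(x : G)⁻¹, g⁆ := by
    rw [commutatorElement_def]
    group
  change (x : G)⁻¹ * (g * (x : G) * g⁻¹) ∈ commutator G
  rw [h10]
  exact Subgroup.commutator_mem_commutator (Subgroup.mem_top _) (Subgroup.mem_top _)

theorem inf_commutator_le_focal :
    (S : Subgroup G) ⊓ commutator G ≤ (groupFusionSystem (S : Subgroup G)).focalSubgroup := by
  have h1 : commutator G ⊓ (S : Subgroup G) = (S : Subgroup G).focalSubgroup :=
    Subgroup.commutator_inf_eq_focalSubgroup S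
  have h2 : (S : Subgroup G).focalSubgroup ≤ (Cfsg.groupFusionSystem (S : Subgroup G)).focalSubgroup := by
    apply Cfsg.Agent.Lib.Transfer.Frobenius.focalSubgroup_le_of_commutator_mem
    intro x hx u hc
    have hw : u * x⁻¹ * u⁻¹ ∈ (S : Subgroup G) := by
      have : u * x⁻¹ * u⁻¹ = x⁻¹ * ⁅x, u⁆ := by
        rw [commutatorElement_def]; group
      rw [this]
      exact Subgroup.mul_mem _ (Subgroup.inv_mem _ hx) hc
    apply Subgroup.subset_closure
    refine ⟨Subgroup.zpowers x⁻¹, Cfsg.conjHom (Subgroup.zpowers x⁻¹) u,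
      ⟨x⁻¹, Subgroup.mem_zpowers _⟩, ?_, ?_⟩
    · refine ⟨?_, ?_, u, fun y => rfl⟩
      · exact (Subgroup.zpowers_le.2 (Subgroup.inv_mem _ hx))
      · rintro ⟨y, k, rfl⟩
        have : u * (x⁻¹ ^ k) * u⁻¹ = (u * x⁻¹ * u⁻¹) ^ k := by
          rw [conj_zpow]
        change u * (x⁻¹ ^ k) * u⁻¹ ∈ (S : Subgroup G)
        rw [this]
        exact Subgroup.zpow_mem _ hw k
    · change ⁅x, u⁆ = (x⁻¹)⁻¹ * (u * x⁻¹ * u⁻¹)
      rw [commutatorElement_def]
      group
  intro y hy
  apply h2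
  rw [← h1]
  exact ⟨hy.2, hy.1⟩

variable {S} {W : Subgroup G}

theorem le_normalizer_of_weaklyClosed (hW : IsWeaklyClosed W (S : Subgroup G)) :
    (S : Subgroup G) ≤ Subgroup.normalizer (W : Set G) := by
  intro s hs
  have h1 : W.map (MulAut.conj s).toMonoidHom ≤ (S : Subgroup G) := by
    rintro _ ⟨w, hw, rfl⟩
    exact (S : Subgroup G).mul_mem ((S : Subgroup G).mul_mem hs (hW.1 hw)) ((S : Subgroup G).inv_mem hs)
  have h2 := hW.2 s h1
  rw [Subgroup.mem_normalizer_iff]
  intro x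
  constructor
  · intro hx
    rw [← h2]
    exact ⟨x, hx, rfl⟩
  · intro hx
    rw [← h2] at hx
    obtain ⟨y, hy, hyx⟩ := hx
    have : y = x := by
      have h3 : s * y * s⁻¹ = s * x * s⁻¹ := hyx
      exact mul_left_cancel (mul_right_cancel h3)
    rwa [← this]

/-- The coset of `N_G(W)` is the only fixed point of `W` on `G / N_G(W)`. -/
theorem mem_normalizer_of_fixed (hW : IsWeaklyClosed W (S : Subgroup G)) {g : G}
    (hfix : ∀ w ∈ W, g⁻¹ * w * g ∈ Subgroup.normalizer (W : Set G)) :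
    g ∈ Subgroup.normalizer (W : Set G) := by
  classical
  set W' : Subgroup G := W.map (MulAut.conj g).toMonoidHom with hW'
  have hmem' : ∀ y, y ∈ W' ↔ g⁻¹ * y * g ∈ W := by
    intro y
    constructor
    · rintro ⟨w, hw, rfl⟩
      have : g⁻¹ * ((MulAut.conj g).toMonoidHom w) * g = w := by
        simp [MulAut.conj_apply]
        group
      rw [this]
      exact hw
    · intro hy
      refine ⟨_, hy, ?_⟩
      simp [MulAut.conj_apply]
      group
  have hWp : IsPGroup p W := S.isPGroup'.to_le hW.1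
  have hW'p : IsPGroup p W' := hWp.map _
  have hle : W ≤ Subgroup.normalizer (W' : Set G) := by
    intro w hw
    rw [Subgroup.mem_normalizer_iff]
    intro y
    rw [hmem', hmem']
    have h1 := (Subgroup.mem_normalizer_iff.1 (hfix w hw)) (g⁻¹ * y * g)
    rw [h1]
    have : g⁻¹ * w * g * (g⁻¹ * y * g) * (g⁻¹ * w * g)⁻¹ = g⁻¹ * (w * y * w⁻¹) * g := by group
    rw [this]
  have hsup : IsPGroup p (W ⊔ W' : Subgroup G) := hWp.to_sup_of_normal_right' hW'p hle
  obtain ⟨P, hP⟩ := hsup.exists_le_sylow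
  obtain ⟨h, rfl⟩ := MulAction.exists_smul_eq G S P
  have hconj : ∀ y ∈ (W ⊔ W' : Subgroup G), h⁻¹ * y * h ∈ (S : Subgroup G) := by
    intro y hy
    exact (Cfsg.Agent.Lib.Transfer.Frobenius.mem_smul_sylow_iff h y S).1 (hP hy)
  have e1 : W.map (MulAut.conj h⁻¹).toMonoidHom = W := by
    apply hW.2
    rintro _ ⟨w, hw, rfl⟩
    have := hconj w (Subgroup.mem_sup_left hw)
    simpa [MulAut.conj_apply] using this
  have e2 : W.map (MulAut.conj (h⁻¹ * g)).toMonoidHom = W := by
    apply hW.2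
    rintro _ ⟨w, hw, rfl⟩
    have h3 : (MulAut.conj g).toMonoidHom w ∈ W' := ⟨w, hw, rfl⟩
    have := hconj _ (Subgroup.mem_sup_right h3)
    have h4 : (MulAut.conj (h⁻¹ * g)).toMonoidHom w = h⁻¹ * (MulAut.conj g).toMonoidHom w * h := by
      change (h⁻¹ * g) * w * (h⁻¹ * g)⁻¹ = h⁻¹ * (g * w * g⁻¹) * h
      group
    rw [h4]
    exact this
  rw [Subgroup.mem_normalizer_iff]
  have hmemh : ∀ y, y ∈ W ↔ h⁻¹ * y * h ∈ W := by
    intro y
    constructor
    · intro hy
      rw [← e1]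
      exact ⟨y, hy, by
        change h⁻¹ * y * h⁻¹⁻¹ = h⁻¹ * y * h
        rw [inv_inv]⟩
    · intro hy
      rw [← e1] at hy
      obtain ⟨u, hu, hu2⟩ := hy
      have : u = y := by
        have h5 : h⁻¹ * u * h⁻¹⁻¹ = h⁻¹ * y * h := hu2
        rw [inv_inv] at h5
        exact mul_left_cancel (mul_right_cancel h5)
      rwa [← this]
  have hmemg : ∀ y, y ∈ W ↔ (h⁻¹ * g) * y * (h⁻¹ * g)⁻¹ ∈ W := by
    intro y
    constructor
    · intro hy
      rw [← e2]
      exact ⟨y, hy, rfl⟩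
    · intro hy
      rw [← e2] at hy
      obtain ⟨u, hu, hu2⟩ := hy
      have : u = y := by
        have h5 : (h⁻¹ * g) * u * (h⁻¹ * g)⁻¹ = (h⁻¹ * g) * y * (h⁻¹ * g)⁻¹ := hu2
        exact mul_left_cancel (mul_right_cancel h5)
      rwa [← this]
  intro y
  rw [hmemg y, hmemh (g * y * g⁻¹)]
  have : h⁻¹ * g * y * (h⁻¹ * g)⁻¹ = h⁻¹ * (g * y * g⁻¹) * h := by group
  rw [this]

/-- The iterated commutators lie in `W`. -/
theorem iter_mem (hW : IsWeaklyClosed W (S : Subgroup G)) {x z : G} (hx : x ∈ (S : Subgroup G)) (hz : z ∈ W)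
    (k : ℕ) : (fun u : G => u⁻¹ * z⁻¹ * u * z)^[k + 1] x ∈ W := by
  have hstep : ∀ u ∈ Subgroup.normalizer (W : Set G), u⁻¹ * z⁻¹ * u * z ∈ W := by
    intro u hu
    have h1 : u⁻¹ * z⁻¹ * u ∈ W := by
      have := (Subgroup.mem_normalizer_iff.1 (Subgroup.inv_mem _ hu) z⁻¹).1 (W.inv_mem hz)
      rwa [inv_inv] at this
    exact W.mul_mem h1 hz
  induction k with
  | zero => exact hstep x (le_normalizer_of_weaklyClosed hW hx)
  | succ k ih =>
    rw [Function.iterate_succ_apply']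
    exact hstep _ (Subgroup.le_normalizer ih)

/-- A homomorphism to `C_p` kills the Frattini subgroup. -/
theorem frattini_le_ker {A : Type*} [Group A] [Finite A] (f : A →* Multiplicative (ZMod p)) :
    frattini A ≤ f.ker := by
  have hcard : Nat.card f.range ∣ p := by
    have := Subgroup.card_subgroup_dvd_card f.range
    rwa [show Nat.card (Multiplicative (ZMod p)) = p by
      rw [Nat.card_congr (Multiplicative.toAdd (α := ZMod p))]
      exact Nat.card_zmod p] at this
  rcases (Nat.dvd_prime hp.out).1 hcard with h | h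
  · have h3 : f.range = ⊥ := Subgroup.card_eq_one.1 h
    have h4 : f.ker = ⊤ := by
      rw [eq_top_iff]
      intro a _
      have : f a ∈ f.range := ⟨a, rfl⟩
      rw [h3] at this
      exact this
    rw [h4]
    exact le_top
  · apply frattini_le_coatom
    apply Cfsg.Agent.Lib.PGroups.Basic.isCoatom_of_index_prime
    rw [Subgroup.index_ker, h]
    exact hp.out

theorem iter_coe {Y : Subgroup G} (z : Y) (k : ℕ) (y : Y) :
    (((fun u : Y => u⁻¹ * z⁻¹ * u * z)^[k] y : Y) : G) = (fun u : G => u⁻¹ * (z : G)⁻¹ * u * z)^[k] (y : G) := by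
  induction k with
  | zero => rfl
  | succ k ih =>
    rw [Function.iterate_succ_apply', Function.iterate_succ_apply', ← ih]
    rfl

/-- The case of an orbit with `x` in a maximal subgroup containing the stabilizer: the negation of the conclusion
of the theorem kills the product. -/
theorem orbit_case1 (hW : IsWeaklyClosed W (S : Subgroup G))
    (hneg : ∀ x ∈ (S : Subgroup G), ∀ z ∈ W, ∀ W₀ : Subgroup W, IsCoatom W₀ →
      (fun y : G => y⁻¹ * z⁻¹ * y * z)^[p - 1] x ∈ W₀.map W.subtype →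
      (fun y : G => y⁻¹ * z⁻¹ * y * z)^[p - 1] x ∈ ((frattini W₀).map W₀.subtype).map W.subtype)
    {Y : Subgroup G} (hWY : W ≤ Y) {x : G} (hxS : x ∈ (S : Subgroup G)) (hxY : x ∈ Y)
    (hYgen : Y = Subgroup.zpowers x ⊔ W) (R : Subgroup Y) [R.Normal] (hRc : IsCoatom R) (hRi : R.index = p)
    [Fintype (Y ⧸ R)] (hxR : (⟨x, hxY⟩ : Y) ∈ R) (ν : R →* Multiplicative (ZMod p)) :
    ∏ c : Y ⧸ R, ν (cjn R c.out ⟨⟨x, hxY⟩, hxR⟩) = 1 := by
  classical
  obtain ⟨z, hz, hzR⟩ : ∃ z, ∃ hz : z ∈ W, (⟨z, hWY hz⟩ : Y) ∉ R := by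
    by_contra hcon
    push Not at hcon
    apply hRc.1
    rw [eq_top_iff]
    rintro ⟨y, hy⟩ -
    have hle : Subgroup.zpowers x ⊔ W ≤ R.map Y.subtype := by
      refine sup_le ?_ ?_
      · rw [Subgroup.zpowers_le]
        exact ⟨⟨x, hxY⟩, hxR, rfl⟩
      · intro w hw
        exact ⟨⟨w, hWY hw⟩, hcon w hw, rfl⟩
    have hy' : y ∈ Subgroup.zpowers x ⊔ W := hYgen ▸ hy
    obtain ⟨y', hy'', rfl⟩ := hle hy'
    exact hy''
  set z' : Y := ⟨z, hWY hz⟩ with hz'
  set xR : R := ⟨⟨x, hxY⟩, hxR⟩ with hxRdef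
  rw [prod_cosets_eq R hRi ν hzR xR, ← nu_iter R ν z' xR]
  set y₀ : R := (commR R z')^[p - 1] xR with hy₀def
  have hy₀ : ((y₀ : Y) : G) = (fun u : G => u⁻¹ * z⁻¹ * u * z)^[p - 1] x := by
    rw [hy₀def, iter_commR_coe, iter_coe]
  obtain ⟨k, hk⟩ : ∃ k, p - 1 = k + 1 := ⟨p - 2, by have := hp.out.two_le; omega⟩
  have hc₀W : (fun u : G => u⁻¹ * z⁻¹ * u * z)^[p - 1] x ∈ W := by
    rw [hk]
    exact iter_mem hW hxS hz k
  -- the maximal subgroup of `W`
  let φ : W →* Y ⧸ R := (QuotientGroup.mk' R).comp (Subgroup.inclusion hWY)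
  let W₀ : Subgroup W := R.comap (Subgroup.inclusion hWY)
  have hker : φ.ker = W₀ := by
    ext w
    rw [MonoidHom.mem_ker]
    exact QuotientGroup.eq_one_iff _
  have hcardq : Nat.card (Y ⧸ R) = p := hRi
  haveI : Fact (Nat.card (Y ⧸ R)).Prime := ⟨by rw [hcardq]; exact hp.out⟩
  have hrange : φ.range = ⊤ := by
    refine (Subgroup.eq_bot_or_eq_top_of_prime_card φ.range).resolve_left ?_
    intro hbot
    have h1 : φ ⟨z, hz⟩ ∈ φ.range := ⟨_, rfl⟩
    rw [hbot] at h1
    exact hzR ((QuotientGroup.eq_one_iff _).1 h1)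
  have hW₀i : W₀.index = p := by
    rw [← hker, Subgroup.index_ker, hrange, Nat.card_congr Subgroup.topEquiv.toEquiv, hcardq]
  have hW₀c : IsCoatom W₀ := Cfsg.Agent.Lib.PGroups.Basic.isCoatom_of_index_prime (by rw [hW₀i]; exact hp.out)
  have hmem : (fun u : G => u⁻¹ * z⁻¹ * u * z)^[p - 1] x ∈ W₀.map W.subtype := by
    refine ⟨⟨_, hc₀W⟩, ?_, rfl⟩
    have : Subgroup.inclusion hWY ⟨_, hc₀W⟩ = (y₀ : Y) := Subtype.ext hy₀.symm
    show Subgroup.inclusion hWY ⟨_, hc₀W⟩ ∈ R
    rw [this]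
    exact y₀.2
  obtain ⟨u, ⟨f, hf, rfl⟩, hu⟩ := hneg x hxS z hz W₀ hW₀c hmem
  let ν₀ : W₀ →* Multiplicative (ZMod p) :=
    ν.comp (MonoidHom.codRestrict ((Subgroup.inclusion hWY).comp W₀.subtype) R (fun w => w.2))
  have h1 : ν₀ f = 1 := frattini_le_ker ν₀ hf
  have h2 : MonoidHom.codRestrict ((Subgroup.inclusion hWY).comp W₀.subtype) R (fun w => w.2) f = y₀ := by
    apply Subtype.ext
    apply Subtype.ext
    rw [hy₀, ← hu]
    rfl
  rw [← h2]
  exact h1

open Classical in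
/-- The case of an orbit with `x` outside a maximal subgroup containing the stabilizer: telescoping. -/
theorem orbit_case2 (hW : IsWeaklyClosed W (S : Subgroup G))
    (lam : Subgroup.normalizer (W : Set G) →* Multiplicative (ZMod p))
    {Y : Subgroup G} (hYp : IsPGroup p Y) {x : G} (hxY : x ∈ Y) (hxG : x ∈ commutator G)
    (hsm : ∀ s (hs : s ∈ (S : Subgroup G)), s ∈ commutator G → orderOf s < orderOf x →
      lam ⟨s, le_normalizer_of_weaklyClosed hW hs⟩ = 1)
    (R : Subgroup Y) [R.Normal] (hxR : (⟨x, hxY⟩ : Y) ∉ R) [Fintype (G ⧸ Subgroup.normalizer (W : Set G))]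
    (ξ₀ : G ⧸ Subgroup.normalizer (W : Set G)) (hQ : ∀ y : Y, y • ξ₀ = ξ₀ → y ∈ R) :
    ∏ ξ ∈ Finset.univ.filter (fun ξ => ξ ∈ MulAction.orbit Y ξ₀), coc _ lam x ξ = 1 := by
  classical
  have hSN : (S : Subgroup G) ≤ (Subgroup.normalizer (W : Set G)) := le_normalizer_of_weaklyClosed hW
  let x' : Y := ⟨x, hxY⟩
  refine prod_cocycle_eq_one (T := Subgroup.zpowers x') (A := G ⧸ (Subgroup.normalizer (W : Set G)))
    (fun t ξ => coc _ lam ((t : Y) : G) ξ) (fun s s' ξ => coc_mul _ lam _ _ ξ) ⟨x', Subgroup.mem_zpowers x'⟩ _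
    ?_ ?_
  · intro t ξ hξ
    obtain ⟨g, hg⟩ := (Finset.mem_filter.1 hξ).2
    refine Finset.mem_filter.2 ⟨Finset.mem_univ _, ⟨(t : Y) * g, ?_⟩⟩
    show ((t : Y) * g) • ξ₀ = (t : Y) • ξ
    rw [mul_smul]
    exact congrArg (fun a => (t : Y) • a) hg
  · intro ξ hξ t ht
    obtain ⟨g, hg⟩ := (Finset.mem_filter.1 hξ).2
    have hg' : g • ξ₀ = ξ := hg
    have ht' : (t : Y) • ξ = ξ := ht
    have h1 : (g⁻¹ * t * g : Y) ∈ R := by
      apply hQ
      rw [mul_smul, mul_smul, hg', ht', ← hg', inv_smul_smul]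
    have htR : (t : Y) ∈ R := by
      have := (inferInstance : R.Normal).conj_mem _ h1 g
      convert this using 1
      group
    -- the order
    have htx : ((t : Y) : G) ∈ Subgroup.zpowers x := by
      obtain ⟨i, hi⟩ := Subgroup.mem_zpowers_iff.1 t.2
      refine Subgroup.mem_zpowers_iff.2 ⟨i, ?_⟩
      rw [← hi]
      rfl
    have hord : orderOf ((t : Y) : G) < orderOf x := by
      refine lt_of_le_of_ne (Nat.le_of_dvd (orderOf_pos x) (orderOf_dvd_of_mem_zpowers htx)) (fun he => hxR ?_)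
      have h4 : Subgroup.zpowers (t : Y) = Subgroup.zpowers x' := by
        refine Subgroup.eq_of_le_of_card_ge (Subgroup.zpowers_le.2 t.2) ?_
        rw [Nat.card_zpowers, Nat.card_zpowers, ← Subgroup.orderOf_coe, ← Subgroup.orderOf_coe, he]
      have h5 : x' ∈ Subgroup.zpowers (t : Y) := by
        rw [h4]
        exact Subgroup.mem_zpowers x'
      exact (Subgroup.zpowers_le.2 htR) h5
    set z : G := ((t : Y) : G) with hzdef
    set r : G := ξ.out with hr
    have hzξ : z • ξ = ξ := ht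
    have hyN : r⁻¹ * z * r ∈ (Subgroup.normalizer (W : Set G)) := by
      have := coc_mem _ z ξ
      rwa [hzξ] at this
    have hco : coc _ lam z ξ = lam ⟨r⁻¹ * z * r, hyN⟩ := by
      unfold coc
      congr 1
      apply Subtype.ext
      simp only [hzξ, hr]
    show coc _ lam z ξ = 1
    rw [hco]
    obtain ⟨k, hk⟩ := hYp (t : Y)
    have hzk : z ^ p ^ k = 1 := by
      have := congrArg Subtype.val hk
      simpa using this
    have hyk : ∃ k : ℕ, (r⁻¹ * z * r) ^ p ^ k = 1 := by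
      refine ⟨k, ?_⟩
      have h5 := conj_pow (a := r⁻¹) (b := z) (i := p ^ k)
      rw [inv_inv] at h5
      rw [h5, hzk]
      group
    obtain ⟨v, hv, hvS⟩ := Cfsg.Agent.Lib.Transfer.Tate.exists_conj_mem_sylow S _ hSN hyN hyk
    have hsG : v⁻¹ * (r⁻¹ * z * r) * v ∈ commutator G := by
      have h6 : z ∈ commutator G := (Subgroup.zpowers_le.2 hxG) htx
      have h7 := (inferInstance : (commutator G).Normal).conj_mem _ h6 (r * v)⁻¹
      convert h7 using 1
      group
    have hsord : orderOf (v⁻¹ * (r⁻¹ * z * r) * v) = orderOf z := by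
      have h10 := orderOf_injective (MulAut.conj (r * v)⁻¹).toMonoidHom (MulAut.conj (r * v)⁻¹).injective z
      rw [← h10]
      congr 1
      simp only [MulEquiv.coe_toMonoidHom, MulAut.conj_apply]
      group
    have h8 := hsm _ hvS hsG (by rw [hsord]; exact hord)
    have h9 : (⟨r⁻¹ * z * r, hyN⟩ : (Subgroup.normalizer (W : Set G))) = ⟨v, hv⟩ * ⟨_, hSN hvS⟩ * ⟨v, hv⟩⁻¹ := by
      apply Subtype.ext
      simp only [Subgroup.coe_mul, Subgroup.coe_inv]
      group
    rw [h9, map_mul, map_mul, map_inv, h8, mul_one, mul_inv_cancel]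

/-- **The Wielandt-Yoshida theorem**, contrapositive form. -/
theorem inf_commutator_le (hW : IsWeaklyClosed W (S : Subgroup G))
    (hneg : ∀ x ∈ (S : Subgroup G), ∀ z ∈ W, ∀ W₀ : Subgroup W, IsCoatom W₀ →
      (fun y : G => y⁻¹ * z⁻¹ * y * z)^[p - 1] x ∈ W₀.map W.subtype →
      (fun y : G => y⁻¹ * z⁻¹ * y * z)^[p - 1] x ∈ ((frattini W₀).map W₀.subtype).map W.subtype) :
    (S : Subgroup G) ⊓ commutator G ≤ ⁅Subgroup.normalizer (W : Set G), Subgroup.normalizer (W : Set G)⁆ := by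
  classical
  have hSN : (S : Subgroup G) ≤ Subgroup.normalizer (W : Set G) := le_normalizer_of_weaklyClosed hW
  have hS : IsPGroup p (S : Subgroup G) := S.isPGroup'
  have hF : (groupFusionSystem (S : Subgroup G)).IsSaturated p := Cfsg.Agent.Lib.Fusion.GroupSystem.isSaturated S
  let N₁ : Subgroup (S : Subgroup G) := (⁅Subgroup.normalizer (W : Set G), Subgroup.normalizer (W : Set G)⁆).comap
    (S : Subgroup G).subtype
  let A : Subgroup (S : Subgroup G) :=
    (groupFusionSystem (S : Subgroup G)).focalSubgroup.comap (S : Subgroup G).subtype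
  have hc : commutator ↥(S : Subgroup G) ≤ N₁ := by
    rw [commutator_def, Subgroup.commutator_le]
    intro a _ b _
    show ((⁅a, b⁆ : ↥(S : Subgroup G)) : G) ∈
      ⁅Subgroup.normalizer (W : Set G), Subgroup.normalizer (W : Set G)⁆
    exact Subgroup.commutator_mem_commutator (hSN a.2) (hSN b.2)
  have hNle : N₁ ≤ A := by
    intro a ha
    apply inf_commutator_le_focal S
    exact ⟨a.2, Subgroup.commutator_mono le_top le_top ha⟩
  have key := Cfsg.Agent.Lib.Fusion.TateFocal.focal_le_of_sup_frattini (groupFusionSystem (S : Subgroup G)) hS hF N₁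
    hc hNle ?_
  · intro y hy
    have h1 : (⟨y, hy.1⟩ : ↥(S : Subgroup G)) ∈ A := inf_commutator_le_focal S hy
    exact key h1
  -- the main argument
  let T : Subgroup (S : Subgroup G) := N₁ ⊔ frattini (S : Subgroup G)
  by_contra hcon
  obtain ⟨x₀, hx₀A, hx₀T⟩ := Set.not_subset.1 hcon
  obtain ⟨x, ⟨hxA, hxT⟩, hmin⟩ := (measure (orderOf : ↥(S : Subgroup G) → ℕ)).wf.has_min {y | y ∈ A ∧ y ∉ T}
    ⟨x₀, hx₀A, hx₀T⟩
  obtain ⟨l, hl, hlx⟩ := exists_hom_ne_one (p := p) T (hc.trans le_sup_left)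
    (fun g => Subgroup.mem_sup_right (Cfsg.Agent.Lib.PGroups.Basic.pow_mem_frattini hS g)) x hxT
  -- the extension to the normalizer
  let e : ((S : Subgroup G).subgroupOf (Subgroup.normalizer (W : Set G))) ≃* (S : Subgroup G) :=
    Subgroup.subgroupOfEquivOfLe hSN
  have hcardC : Nat.card (Multiplicative (ZMod p)) = p := by
    rw [Nat.card_congr (Multiplicative.toAdd (α := ZMod p))]
    exact Nat.card_zmod p
  have hcop : Nat.Coprime (Nat.card (Multiplicative (ZMod p)))
      ((S : Subgroup G).subgroupOf (Subgroup.normalizer (W : Set G))).index := by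
    rw [hcardC, hp.out.coprime_iff_not_dvd]
    intro hd
    apply S.not_dvd_index
    have hd' : p ∣ (S : Subgroup G).relIndex (Subgroup.normalizer (W : Set G)) := hd
    rw [← Subgroup.relIndex_mul_index hSN]
    exact hd'.trans (dvd_mul_right _ _)
  obtain ⟨lam, hlam⟩ := Cfsg.Agent.Lib.Transfer.Focal.exists_extension hcop (l.comp e.toMonoidHom) (by
    intro a b g hab
    have h1 : (e a)⁻¹ * e b ∈ T := by
      apply Subgroup.mem_sup_left
      show ((a : Subgroup.normalizer (W : Set G)) : G)⁻¹ * ((b : Subgroup.normalizer (W : Set G)) : G) ∈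
        ⁅Subgroup.normalizer (W : Set G), Subgroup.normalizer (W : Set G)⁆
      have h2 : ((b : Subgroup.normalizer (W : Set G)) : G) = (g : G) * ((a : Subgroup.normalizer (W : Set G)) : G) * (g : G)⁻¹ := by
        have := congrArg Subtype.val hab
        simpa using this
      rw [h2]
      have h3 : ((a : Subgroup.normalizer (W : Set G)) : G)⁻¹ * ((g : G) * ((a : Subgroup.normalizer (W : Set G)) : G) * (g : G)⁻¹) =
          ⁅((a : Subgroup.normalizer (W : Set G)) : G)⁻¹, (g : G)⁆ := by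
        rw [commutatorElement_def]
        group
      rw [h3]
      exact Subgroup.commutator_mem_commutator (Subgroup.inv_mem _ a.1.2) g.2
    have h4 := hl _ h1
    rw [map_mul, map_inv, inv_mul_eq_one] at h4
    exact h4.symm)
  have hlamS : ∀ s (hs : s ∈ (S : Subgroup G)), lam ⟨s, hSN hs⟩ = l ⟨s, hs⟩ := fun s hs => hlam ⟨⟨s, hSN hs⟩, hs⟩
  -- the subgroup `Y`
  have hxS : (x : G) ∈ (S : Subgroup G) := x.2
  have hxG : (x : G) ∈ commutator G := focal_le_commutator S hxA
  let Y : Subgroup G := Subgroup.zpowers (x : G) ⊔ W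
  have hYS : Y ≤ (S : Subgroup G) := sup_le (Subgroup.zpowers_le.2 hxS) hW.1
  have hYp : IsPGroup p Y := hS.to_le hYS
  have hWY : W ≤ Y := le_sup_right
  have hxY : (x : G) ∈ Y := Subgroup.mem_sup_left (Subgroup.mem_zpowers _)
  haveI : Fintype (G ⧸ Subgroup.normalizer (W : Set G)) := Fintype.ofFinite _
  have hsm : ∀ s (hs : s ∈ (S : Subgroup G)), s ∈ commutator G → orderOf s < orderOf (x : G) →
      lam ⟨s, hSN hs⟩ = 1 := by
    intro s hs hsG hord
    rw [hlamS s hs]
    apply hl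
    by_contra hsT
    have h1 : (⟨s, hs⟩ : ↥(S : Subgroup G)) ∈ A := inf_commutator_le_focal S ⟨hs, hsG⟩
    exact hmin _ ⟨h1, hsT⟩ (by
      show orderOf (⟨s, hs⟩ : ↥(S : Subgroup G)) < orderOf x
      rw [← Subgroup.orderOf_coe, ← Subgroup.orderOf_coe]
      exact hord)
  have hprod := prod_eq_pow_of_orbits (G := Y) (A := G ⧸ Subgroup.normalizer (W : Set G))
    (fun ξ => coc _ lam (x : G) ξ) (l x) ?_ ?_
  · -- the count
    have hV1 : transferHom _ lam (x : G) = 1 := transferHom_commutator _ lam hxG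
    rw [transferHom_apply, hprod] at hV1
    have hlp : l x ^ p = 1 := by
      have := pow_card_eq_one' (G := Multiplicative (ZMod p)) (x := l x)
      rwa [hcardC] at this
    have hord : orderOf (l x) = p := orderOf_eq_prime hlp hlx
    have h1 : p ∣ Nat.card (MulAction.fixedPoints Y (G ⧸ Subgroup.normalizer (W : Set G))) := by
      rw [← hord]
      exact orderOf_dvd_of_pow_eq_one hV1
    have h2 := hYp.card_modEq_card_fixedPoints (G ⧸ Subgroup.normalizer (W : Set G))
    have h3 : p ∣ Nat.card (G ⧸ Subgroup.normalizer (W : Set G)) :=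
      Nat.modEq_zero_iff_dvd.1 (h2.trans (Nat.modEq_zero_iff_dvd.2 h1))
    have h4 : (Subgroup.normalizer (W : Set G)).index ∣ (S : Subgroup G).index := Subgroup.index_dvd_of_le hSN
    exact S.not_dvd_index (h3.trans h4)
  · -- a fixed point
    intro ξ hξ
    have hg : ξ.out ∈ Subgroup.normalizer (W : Set G) := by
      apply mem_normalizer_of_fixed hW
      intro w hw
      have h1 : w • ξ = ξ := hξ ⟨w, hWY hw⟩
      have := coc_mem (Subgroup.normalizer (W : Set G)) w ξ
      rwa [h1] at this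
    have h1 : (x : G) • ξ = ξ := hξ ⟨x, hxY⟩
    have hco : coc _ lam (x : G) ξ = lam (⟨ξ.out, hg⟩⁻¹ * ⟨x, hSN hxS⟩ * ⟨ξ.out, hg⟩) := by
      unfold coc
      congr 1
      apply Subtype.ext
      simp only [h1, Subgroup.coe_mul, Subgroup.coe_inv]
    show coc _ lam (x : G) ξ = l x
    rw [hco, map_mul, map_mul, map_inv, mul_comm, mul_inv_cancel_left]
    exact hlamS x hxS
  · -- a nontrivial orbit
    intro ξ₀ hξ₀
    let Q : Subgroup Y := MulAction.stabilizer Y ξ₀
    have hQ : Q ≠ ⊤ := by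
      intro h
      apply hξ₀
      intro g
      have : g ∈ Q := h ▸ Subgroup.mem_top g
      exact this
    obtain ⟨R, hR, hQR⟩ := (eq_top_or_exists_le_coatom Q).resolve_left hQ
    haveI hRn : R.Normal := Cfsg.Agent.Lib.PGroups.Basic.normal_of_isCoatom hYp hR
    have hRi := Cfsg.Agent.Lib.PGroups.Basic.index_eq_of_isCoatom hYp hR
    by_cases hxR : (⟨x, hxY⟩ : Y) ∈ R
    · haveI : Fintype (Y ⧸ R) := Fintype.ofFinite _
      obtain ⟨ν, hν⟩ := orbit_prod (S := Y) (A := G ⧸ Subgroup.normalizer (W : Set G))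
        (fun s ξ => coc _ lam (s : G) ξ) (fun s s' a => coc_mul _ lam _ _ a) R ξ₀ (fun s hs => hQR hs)
      have h3 := hν ⟨⟨x, hxY⟩, hxR⟩
      have h4 := orbit_case1 hW hneg hWY hxS hxY rfl R hR hRi hxR ν
      rw [← h3] at h4
      exact h4
    · exact orbit_case2 hW lam hYp hxY hxG hsm R hxR ξ₀ (fun y hy => hQR hy)

end group

end Cfsg.Agent.Lib.WYoshida.Main
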